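import Cfsg.Agent.H325.RIM.Base
import Cfsg.Agent.H620.RIM.Nb
import Cfsg.Agent.H793.RIM.L34B

/-!
# S4816: `NBall 5` for `PSL(3,4)` (helper793)
-/

set_option autoImplicit false
set_option linter.unusedSectionVars false

namespace Cfsg.Agent.H793.RIM

open Subgroup MulAction
open Cfsg.Agent.H665.RIM Cfsg.Agent.H620.RIM

universe u

variable {S : Type u} [Group S]

theorem B34.cent_card (hS : B34 S) {x : S} {r : ℕ} (hr : r = 5 ∨ r = 7) (hx : orderOf x = r) :
    Nat.card (centralizer ({x} : Set S)) = r := by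
  have hx1 : x ≠ 1 := by
    rintro rfl
    rw [orderOf_one] at hx
    omega
  have hc : Nat.card (zpowers x) = r ^ 1 := by rw [Nat.card_zpowers, hx, pow_one]
  rw [hS.cent_eq (P := zpowers x) (r := r) (a := 1) (by rcases hr with rfl | rfl <;> norm_num) hc
    (by rcases hr with rfl | rfl; exacts [Or.inl ⟨rfl, rfl⟩, Or.inr (Or.inl ⟨rfl, rfl⟩)]) (mem_zpowers x) hx1, hc, pow_one]

/-- a power of `x` conjugate to `x` : the exponent has small order -/
theorem not_conj_pow [Finite S] {x : S} {n w j r : ℕ} (hx : orderOf x = r)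
    (hN : Nat.card (normalizer ((zpowers x : Subgroup S) : Set S)) = w) (hw : w ∣ n)
    (hj : ¬ r ∣ j ^ n - 1) (hj1 : 1 ≤ j) : ¬ IsConj x (x ^ j) := by
  intro hc
  obtain ⟨g, hg⟩ := isConj_iff.1 hc
  have h1 : ∀ m : ℕ, g ^ m * x * (g ^ m)⁻¹ = x ^ (j ^ m) := by
    intro m
    induction m with
    | zero => simp
    | succ m ih =>
      calc g ^ (m + 1) * x * (g ^ (m + 1))⁻¹ = g * (g ^ m * x * (g ^ m)⁻¹) * g⁻¹ := by rw [pow_succ']; group
        _ = (g * x * g⁻¹) ^ (j ^ m) := by rw [ih, conj_pow]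
        _ = _ := by rw [hg, ← pow_mul, pow_succ']
  have hgN : g ∈ normalizer ((zpowers x : Subgroup S) : Set S) := by
    have h2 : (zpowers x).map (MulAut.conj g).toMonoidHom ≤ zpowers x := by
      rw [MonoidHom.map_zpowers, zpowers_le]
      show g * x * g⁻¹ ∈ zpowers x
      rw [hg]
      exact pow_mem (mem_zpowers x) j
    have h3 : (zpowers x).map (MulAut.conj g).toMonoidHom = zpowers x := by
      refine eq_of_le_of_card_ge h2 ?_
      rw [Subgroup.card_map_of_injective (MulAut.conj g).injective]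
    rw [mem_normalizer_iff]
    intro y
    constructor
    · intro hy
      rw [← h3]
      exact ⟨y, hy, rfl⟩
    · intro hy
      rw [← h3] at hy
      obtain ⟨z, hz, hzy⟩ := hy
      have : z = y := (MulAut.conj g).injective hzy
      exact this ▸ hz
  have h2 : g ^ n = 1 := by
    have h3 : orderOf (⟨g, hgN⟩ : normalizer ((zpowers x : Subgroup S) : Set S)) ∣ w := by
      rw [← hN]; exact _root_.orderOf_dvd_natCard _
    rw [Subgroup.orderOf_mk] at h3
    exact orderOf_dvd_iff_pow_eq_one.1 (h3.trans hw)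
  have h3 := h1 n
  rw [h2, one_mul, inv_one, mul_one] at h3
  apply hj
  have h4 : x ^ (j ^ n) = x ^ 1 := by rw [← h3, pow_one]
  rw [pow_eq_pow_iff_modEq, hx] at h4
  exact (Nat.modEq_iff_dvd' (Nat.one_le_pow _ _ hj1)).1 h4.symm

theorem B34.nball5 (hS : B34 S) (h5 : ∃ y : S, orderOf y = 5) (h7 : ∃ x : S, orderOf x = 7) : NBall 5 S := by
  have hfin := hS.finite
  obtain ⟨y, hy⟩ := h5
  obtain ⟨x, hx⟩ := h7
  have hy2 : orderOf (y ^ 2) = 5 := by
    rw [Nat.Coprime.orderOf_pow (by rw [hy]; norm_num), hy]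
  have hx2 : orderOf (x ^ 3) = 7 := by
    rw [Nat.Coprime.orderOf_pow (by rw [hx]; norm_num), hx]
  have hNy : Nat.card (normalizer ((zpowers y : Subgroup S) : Set S)) = 10 :=
    hS.norm5 (by rw [Nat.card_zpowers, hy])
  have hNx : Nat.card (normalizer ((zpowers x : Subgroup S) : Set S)) = 21 :=
    hS.norm7 (by rw [Nat.card_zpowers, hx])
  have hyc : ¬ IsConj y (y ^ 2) := not_conj_pow (n := 10) hy hNy dvd_rfl (by norm_num) (by norm_num)
  have hxc : ¬ IsConj x (x ^ 3) := not_conj_pow (n := 21) hx hNx dvd_rfl (by norm_num) (by norm_num)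
  have hoc : ∀ a b : S, orderOf a ≠ orderOf b → ¬ IsConj a b := by
    intro a b hab hc
    obtain ⟨g, rfl⟩ := isConj_iff.1 hc
    apply hab
    exact (orderOf_injective (MulAut.conj g).toMonoidHom (MulAut.conj g).injective a).symm
  intro m hm hpm
  obtain ⟨F, hF, hFg⟩ := exists_finset (MGood m) [1, y, y ^ 2, x, x ^ 3] (by
    simp only [List.pairwise_cons, List.mem_cons, List.not_mem_nil, or_false, forall_eq_or_imp, forall_eq,
      List.Pairwise.nil, and_true, false_implies, implies_true]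
    refine ⟨⟨?_, ?_, ?_, ?_⟩, ⟨hyc, ?_, ?_⟩, ⟨?_, ?_⟩, hxc⟩ <;> apply hoc <;>
      simp only [orderOf_one, hx, hy, hx2, hy2] <;> norm_num) (by
    intro g hg
    simp only [List.mem_cons, List.not_mem_nil, or_false] at hg
    rcases hg with rfl | rfl | rfl | rfl | rfl
    · exact mGood_of_coprime (by rw [orderOf_one]; exact Nat.coprime_one_left m)
    · exact mGood_of_self (by rw [hy]; norm_num) (by rw [hS.cent_card (Or.inl rfl) hy, hy])
    · exact mGood_of_self (by rw [hy2]; norm_num) (by rw [hS.cent_card (Or.inl rfl) hy2, hy2])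
    · exact mGood_of_self (by rw [hx]; norm_num) (by rw [hS.cent_card (Or.inr rfl) hx, hx])
    · exact mGood_of_self (by rw [hx2]; norm_num) (by rw [hS.cent_card (Or.inr rfl) hx2, hx2]))
  refine nb_of_dz_self (y := y) (w := 2) (by norm_num) hpm (by rw [hS.card]; norm_num) hy
    (hS.cent_card (Or.inl rfl) hy) (by rw [hNy]) F hFg ?_
  rw [hF]
  simp

theorem nball5_L34 {S : Type u} [Group S] {F : Type*} [Field F] [Fintype F] (hF : Fintype.card F = 4)
    (e : Nonempty (S ≃* Matrix.ProjectiveSpecialLinearGroup (Fin 3) F)) : NBall 5 S := by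
  obtain ⟨e⟩ := e
  obtain ⟨f⟩ := SporadicA.FieldFour.nonempty_psl_equiv (n := Fin 3) F hF
  exact H325.RIM.NBall.congr (e.trans f.symm) (b34.nball5 ⟨_, o_M7M7⟩ ⟨_, o_M7⟩)

end Cfsg.Agent.H793.RIM
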